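import Cfsg.Agent.H114.E8L.Stmt
import Cfsg.Agent.H238.E8.Cent
import Cfsg.Agent.H518.E83.Singer

/-!
# S5925, box BP: an element of order 11 of `E₈(3)` has a partner of order 121 (helper639)

`x₀ = φ₂(Mo) = φ₂(Si)¹¹`, and `φ₂(Si)` fixes every fixed vector of `x₀`: over the algebraic closure `φ₂(Si)` is
conjugate to a torus element whose entry on the root `s` is `ζ ^ ex s`, `ζ` of order 121, and `11 ∣ ex s` only for
`ex s = 0`.
-/

set_option autoImplicit false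
set_option linter.unusedSectionVars false
set_option maxRecDepth 100000

namespace Cfsg.Agent.H639.E83

open CoxeterSystem Matrix Cfsg Cfsg.Lie Cfsg.Lie.ChevalleyDatum
open Cfsg.Agent.ChevalleyStructure Cfsg.Agent.ChevalleyStructure.Elts Cfsg.Agent.ChevalleyStructure.CoxeterGeom
  Cfsg.Agent.ChevalleyStructure.CoxeterGeomTypes Cfsg.Agent.ChevalleyStructure.NPerm
  Cfsg.Agent.ChevalleyStructure.RootVec Cfsg.Agent.ChevalleyStructure.RootVecTab
open Cfsg.Agent.Tits.Roots Cfsg.Agent.Tits.Core Cfsg.Agent.Nodes Cfsg.Agent.Nodes.Reps Cfsg.Agent.Nodes.BNOf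
  Cfsg.Agent.Nodes.RGDChev Cfsg.Agent.Nodes.Bruhat Cfsg.Agent.Nodes.SubComb Cfsg.Agent.Nodes.Coroot
  Cfsg.Agent.Nodes.NormalForm
open Cfsg.Agent.KFacts.RgdField Cfsg.Agent.KFacts.RgdChevCoord Cfsg.Agent.BpExc.TorCent Cfsg.Agent.BpExc.TorChev
open Cfsg.Agent.GpExc.Field Cfsg.Agent.BpExc.Tow Cfsg.Agent.BpExc.TowChev Cfsg.Agent.BpExc.Fr
  Cfsg.Agent.BpExc.LangFr Cfsg.Agent.LangThm Cfsg.Agent.BpExc Cfsg.Agent.H129.TorusChar Cfsg.Agent.H129.TorusMain
open Cfsg.Agent.H942.E8Tab Cfsg.Agent.H942.E8Alc Cfsg.Agent.H942.CB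
open Cfsg.Agent.H540.E8C (KK)
open Cfsg.Agent.ChevalleyStructure.HMatDiagAll (expo)
open Cfsg.Agent.H992.E8X (X hE8)
open Cfsg.Agent.H238.E8
open Cfsg.Agent.H114.E8L (G3 L3 ac ac_mul ac_one B2 BP MoS)
open Cfsg.Agent.H518.E83 (Si Si_pow Si_pow' singer)

theorem tab0 : ∀ s : Fin 240, (11 : ℤ) ∣ ex s.val → ex s.val = 0 := by decide +kernel

/-- the matrix of an element over the algebraic closure -/
abbrev MM (g : ↥(chevE8.group KK)) : Matrix chevE8.Idx chevE8.Idx KK := ((g : GL chevE8.Idx KK) : Matrix chevE8.Idx chevE8.Idx KK)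

theorem MM_mul (a b : ↥(chevE8.group KK)) : MM (a * b) = MM a * MM b := by
  unfold MM
  rw [Subgroup.coe_mul, Units.val_mul]

theorem MM_inv (a : ↥(chevE8.group KK)) : MM a⁻¹ * MM a = 1 := by
  rw [← MM_mul, inv_mul_cancel]
  rfl

theorem MM_inv' (a : ↥(chevE8.group KK)) : MM a * MM a⁻¹ = 1 := by
  rw [← MM_mul, mul_inv_cancel]
  rfl

theorem emb_mulVec (f : ZMod 3 →+* KK) (g : G3) (v : L3) :
    MM (emb hE8 f g) *ᵥ (fun i => f (v i)) = fun i => f (ac g v i) := by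
  unfold MM
  rw [coe_emb, coe_glMap]
  funext i
  exact (RingHom.map_mulVec f _ v i).symm

/-- the torus element and its 11th power have the same fixed vectors -/
theorem fix_T {ζ : KKˣ} (hζ : orderOf ζ = 121) (h : ∏ i, d3 ζ i = 1) (u : chevE8.Idx → KK)
    (hu : MM (ph2 KK (dg (d3 ζ) h) ^ 11) *ᵥ u = u) : MM (ph2 KK (dg (d3 ζ) h)) *ᵥ u = u := by
  obtain ⟨hT, hX⟩ := ph2_dg (d3 ζ) h
  unfold MM at hu ⊢
  rw [TT_diag' e8T (pow_mem hT 11)] at hu
  rw [TT_diag' e8T hT]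
  funext i
  have h7 := congrFun hu i
  rw [Matrix.mulVec_diagonal] at h7 ⊢
  rcases i with i | s
  · simp
  · simp only [Sum.elim_inr] at h7 ⊢
    by_cases h0 : u (Sum.inr s) = 0
    · rw [h0, mul_zero]
    · have h8 : cX e8T (ph2 KK (dg (d3 ζ) h) ^ 11) (vec chevE8 8 s) = 1 := by
        have h9 : cX e8T (ph2 KK (dg (d3 ζ) h) ^ 11) (vec chevE8 8 s) * u (Sum.inr s) = 1 * u (Sum.inr s) := by
          rw [one_mul]
          exact h7
        exact mul_right_cancel₀ h0 h9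
      have hX' : cX e8T (ph2 KK (dg (d3 ζ) h)) (vec chevE8 8 s) = ((ζ ^ ex s.val : KKˣ) : KK) := by
        rw [← wv_d3]
        exact hX s
      rw [cX_pow e8T hT, hX', ← Units.val_pow_eq_pow_val, ← Units.val_one, Units.val_inj, ← zpow_natCast, ← _root_.zpow_mul] at h8
      have h9 : (121 : ℤ) ∣ ex s.val * (11 : ℕ) := by
        have := orderOf_dvd_iff_zpow_eq_one.2 h8
        rwa [hζ] at this
      have h10 : (11 : ℤ) ∣ ex s.val := by
        push_cast at h9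
        omega
      rw [hX', tab0 s h10, zpow_zero, Units.val_one, one_mul]

theorem MoS_eq : MoS = Cfsg.Agent.H518.E83.Mo := rfl

/-- the partner of `x₀` -/
noncomputable def x0' : G3 := ph2 (ZMod 3) Si

theorem x0'_pow : x0' ^ 11 = Cfsg.Agent.H114.E8L.x0 := by
  unfold x0' Cfsg.Agent.H114.E8L.x0
  rw [← map_pow, Si_pow, MoS_eq]

theorem fix_x0 (v : L3) (hv : ac Cfsg.Agent.H114.E8L.x0 v = v) : ac x0' v = v := by
  obtain ⟨f, hf⟩ : ∃ f : ZMod 3 →+* KK, f = algebraMap (ZMod 3) KK := ⟨_, rfl⟩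
  obtain ⟨Z, z, c, hz, hd, -⟩ := singer f
  have hu : IsUnit z := hz.isUnit (by norm_num)
  obtain ⟨ζ, rfl⟩ := hu
  have hζ : orderOf ζ = 121 := by
    rw [← orderOf_units]
    exact hz.eq_orderOf.symm
  have hζ' : ζ ^ 121 = 1 := by rw [← hζ]; exact pow_orderOf_eq_one ζ
  have hp := prod_d3 hζ'
  have hdg : Z⁻¹ * SpecialLinearGroup.map f Si * Z = dg (d3 ζ) hp := by
    apply Subtype.ext
    rw [hd]
    show Matrix.diagonal _ = Matrix.diagonal _
    congr 1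
  have e1 : emb hE8 f x0' = ph2 KK Z * ph2 KK (dg (d3 ζ) hp) * (ph2 KK Z)⁻¹ := by
    unfold x0'
    rw [emb_ph2, ← hdg, map_mul, map_mul, map_inv]
    group
  have e2 : emb hE8 f Cfsg.Agent.H114.E8L.x0 = ph2 KK Z * ph2 KK (dg (d3 ζ) hp) ^ 11 * (ph2 KK Z)⁻¹ := by
    rw [← x0'_pow, map_pow, e1, conj_pow]
  have h1 : MM (emb hE8 f Cfsg.Agent.H114.E8L.x0) *ᵥ (fun i => f (v i)) = fun i => f (v i) := by
    rw [emb_mulVec, hv]
  rw [e2, MM_mul, MM_mul] at h1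
  have h2 := congrArg (fun u => MM (ph2 KK Z)⁻¹ *ᵥ u) h1
  simp only [Matrix.mulVec_mulVec] at h2
  rw [← mul_assoc, ← mul_assoc, MM_inv, one_mul, ← Matrix.mulVec_mulVec] at h2
  have h3 := fix_T hζ hp _ h2
  have h4 : MM (emb hE8 f x0') *ᵥ (fun i => f (v i)) = fun i => f (v i) := by
    rw [e1, MM_mul, MM_mul, ← Matrix.mulVec_mulVec, ← Matrix.mulVec_mulVec, h3, Matrix.mulVec_mulVec, MM_inv',
      Matrix.one_mulVec]
  rw [emb_mulVec] at h4
  funext i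
  exact f.injective (congrFun h4 i)

/-- **Box BP.** -/
theorem bp (h : B2) : BP := by
  intro x hx hx1
  obtain ⟨g, hg⟩ := h x hx hx1
  have hx2 : x = g⁻¹ * Cfsg.Agent.H114.E8L.x0 * g := by rw [← hg]; group
  have h0 : x0' ^ 11 ≠ 1 := by
    intro h1
    rw [x0'_pow] at h1
    rw [h1] at hx2
    apply hx1
    rw [hx2]
    group
  have h1 : x0' ^ 11 ^ 2 = 1 := by
    show x0' ^ 121 = 1
    unfold x0'
    rw [← map_pow, Si_pow', map_one]
  have h2 : orderOf x0' = 11 ^ (1 + 1) :=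
    orderOf_eq_prime_pow (hp := ⟨by norm_num⟩) (by rw [pow_one]; exact h0) h1
  refine ⟨g⁻¹ * x0' * g, ?_, ?_⟩
  · have h3 : orderOf (g⁻¹ * x0' * g) = orderOf x0' := by
      have h4 : g⁻¹ * x0' * g = MulAut.conj g⁻¹ x0' := by rw [MulAut.conj_apply, inv_inv]
      rw [h4]
      exact MulEquiv.orderOf_eq (MulAut.conj g⁻¹) x0'
    rw [h3, h2]
    norm_num
  · intro v hv
    rw [hx2, ac_mul, ac_mul] at hv
    have h3 : ac Cfsg.Agent.H114.E8L.x0 (ac g v) = ac g v := by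
      have h4 := congrArg (ac g) hv
      rw [← ac_mul, mul_inv_cancel, ac_one] at h4
      exact h4
    rw [ac_mul, ac_mul, fix_x0 _ h3, ← ac_mul, inv_mul_cancel, ac_one]

end Cfsg.Agent.H639.E83
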